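import Cfsg.Agent.H643.QO.Cov
import Cfsg.Agent.H224.Ore.ESeven
import Cfsg.Agent.OddHalf.NI.ExcEnd
import Cfsg.Agent.H60.MultA
import Cfsg.Agent.Nodes.ClsPair
import Cfsg.Agent.S2106

/-!
# Ore's theorem for the covers of `E₇(q)`, `q` odd (S2491, S2492, piece C2)

* `commute_nodes` : the rank one subgroups of orthogonal nodes commute;
* `isC_neg_one` : `-1` is a commutator in `SL₂(q)`, `q` odd;
* `allC_cover_E7` : every perfect central extension of `E₇(q)` has only commutators, `q` odd.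
-/

set_option autoImplicit false
set_option linter.unusedSectionVars false

namespace Cfsg.Agent.H643.QO

open CoxeterSystem Cfsg.Agent.ChevalleyStructure.CoxeterGeom Cfsg.Agent.Tits.Roots Cfsg.Agent.Tits.Core
  Cfsg.Agent.Nodes.Reps
  Cfsg.Agent.Nodes.BNOf Cfsg.Agent.Nodes.StabComb Cfsg.Agent.Nodes.RGDLift
  Cfsg.Agent.Nodes.RGDLib Cfsg.Agent.Nodes.Bruhat Cfsg.Agent.Nodes.OppDec Cfsg.Agent.Nodes.LeviDec
  Cfsg.Agent.OddHalf.NI.Mult
  Cfsg.Agent.H162.GaussDec Cfsg.Agent.H162.GaussLevi Cfsg.Agent.H162.GaussSL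
open Cfsg.Agent.H928.Ore.Frame (NF LP)
open Cfsg.Agent.H51.Mult (PCE)
open Cfsg.Agent.H777.Ore (IsC AllC)

universe u v w

section Nodes

variable {I W Y : Type*} [Fintype I] [DecidableEq I] [Group W] [Finite W] [Group Y]
  {M : CoxeterMatrix I} {cs : CoxeterSystem M W} {A : I → I → ℤ} {h : IsCartan M A} {p : ℕ}
  {T : Subgroup Y} {n : I → Y} {X : (I → ℤ) → Subgroup Y}
  {F : I → Type*} [∀ i, Field (F i)] {s : ∀ i, Matrix.SpecialLinearGroup (Fin 2) (F i) →* Y}

theorem commute_roots (R : RGD cs h p T n X) {i j : I} (hij : i ≠ j) (h2 : M i j = 2) {x y : I → ℤ}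
    (hx : x = sr i ∨ x = -sr i) (hy : y = sr j ∨ y = -sr j) {a b : Y} (ha : a ∈ X x) (hb : b ∈ X y) :
    a * b = b * a := by
  have : Fintype W := Fintype.ofFinite W
  have key := Cfsg.Agent.Nodes.ClsPair.pair_of_two (R := {x | IsRoot cs h x}) (Z := X) (z := fun _ => 1) R
    (fun _ _ => le_rfl) (fun _ hr => hr) hij h2
  have hxr : IsRoot cs h x := by rcases hx with rfl | rfl; exacts [isRoot_sr cs h i, (isRoot_sr cs h i).neg]
  have hyr : IsRoot cs h y := by rcases hy with rfl | rfl; exacts [isRoot_sr cs h j, (isRoot_sr cs h j).neg]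
  have hxs : Cfsg.Agent.Nodes.Comb.Supp i j x := by
    intro k hk1 hk2
    rcases hx with rfl | rfl
    · exact sr_ne hk1
    · rw [Pi.neg_apply, sr_ne hk1, neg_zero]
  have hys : Cfsg.Agent.Nodes.Comb.Supp i j y := by
    intro k hk1 hk2
    rcases hy with rfl | rfl
    · exact sr_ne hk2
    · rw [Pi.neg_apply, sr_ne hk2, neg_zero]
  have hxi : x i ≠ 0 := by
    rcases hx with rfl | rfl
    · rw [sr_self]; decide
    · rw [Pi.neg_apply, sr_self]; decide
  have hyi : y i = 0 := by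
    rcases hy with rfl | rfl
    · exact sr_ne hij
    · rw [Pi.neg_apply, sr_ne hij, neg_zero]
  have hne : x ≠ y := fun e => hxi (by rw [e, hyi])
  have hne' : x ≠ -y := fun e => hxi (by rw [e, Pi.neg_apply, hyi, neg_zero])
  have hf : form cs h (sr i) (sr j) = 0 := by
    have := two_form cs h j (sr i)
    rw [sr, pairing_single, Cfsg.Agent.Nodes.ClsPair.A_eq_zero h hij.symm (by rwa [M.symmetric])] at this
    rw [sr]
    linarith
  have hf1 : form cs h x y = 0 := by
    rcases hx with rfl | rfl <;> rcases hy with rfl | rfl <;>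
      simp only [form_neg_left, form_neg_right, hf, neg_zero]
  exact (key y hyr hys x hxr hxs hne hne').cent hf1.ge a ha b hb

theorem commute_nodes (R : RGD cs h p T n X) (C : Coord X F s) {i j : I} (hij : i ≠ j) (h2 : M i j = 2)
    (x : Matrix.SpecialLinearGroup (Fin 2) (F i)) (y : Matrix.SpecialLinearGroup (Fin 2) (F j)) :
    s i x * s j y = s j y * s i x := by
  -- first `y` fixed among the generators
  have key : ∀ b : Y, (b ∈ X (sr j) ∨ b ∈ X (-sr j)) → ∀ x, s i x * b = b * s i x := by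
    intro b hb x
    have h3 : (Subgroup.centralizer ({b} : Set Y)).comap (s i) = ⊤ := by
      refine mem_of_up_lo (fun a => ?_) (fun a => ?_)
      · rw [Subgroup.mem_comap, Subgroup.mem_centralizer_singleton_iff]
        rcases hb with hb | hb
        · exact (commute_roots R hij h2 (Or.inl rfl) (Or.inl rfl) (C.mem_up i a) hb)
        · exact (commute_roots R hij h2 (Or.inl rfl) (Or.inr rfl) (C.mem_up i a) hb)
      · rw [Subgroup.mem_comap, Subgroup.mem_centralizer_singleton_iff]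
        rcases hb with hb | hb
        · exact (commute_roots R hij h2 (Or.inr rfl) (Or.inl rfl) (C.mem_lo i a) hb)
        · exact (commute_roots R hij h2 (Or.inr rfl) (Or.inr rfl) (C.mem_lo i a) hb)
    have h4 : x ∈ (Subgroup.centralizer ({b} : Set Y)).comap (s i) := by rw [h3]; trivial
    rw [Subgroup.mem_comap, Subgroup.mem_centralizer_singleton_iff] at h4
    exact h4
  have h3 : (Subgroup.centralizer ({s i x} : Set Y)).comap (s j) = ⊤ := by
    refine mem_of_up_lo (fun a => ?_) (fun a => ?_)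
    · rw [Subgroup.mem_comap, Subgroup.mem_centralizer_singleton_iff]
      exact (key _ (Or.inl (C.mem_up j a)) x).symm
    · rw [Subgroup.mem_comap, Subgroup.mem_centralizer_singleton_iff]
      exact (key _ (Or.inr (C.mem_lo j a)) x).symm
  have h4 : y ∈ (Subgroup.centralizer ({s i x} : Set Y)).comap (s j) := by rw [h3]; trivial
  rw [Subgroup.mem_comap, Subgroup.mem_centralizer_singleton_iff] at h4
  exact h4.symm

end Nodes

/-- commutators in commuting subgroups -/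
theorem comm_mul {G : Type*} [Group G] {a b c d : G} (h1 : Commute a c) (h2 : Commute a d) (h3 : Commute b c)
    (h4 : Commute b d) : a * b * a⁻¹ * b⁻¹ * (c * d * c⁻¹ * d⁻¹) = (a * c) * (b * d) * (a * c)⁻¹ * (b * d)⁻¹ := by
  have e1 : Commute (a * b * a⁻¹ * b⁻¹) c :=
    ((h1.mul_left h3).mul_left h1.inv_left).mul_left h3.inv_left
  calc a * b * a⁻¹ * b⁻¹ * (c * d * c⁻¹ * d⁻¹) = (a * b * a⁻¹ * b⁻¹ * c) * d * c⁻¹ * d⁻¹ := by group
    _ = c * a * b * a⁻¹ * (b⁻¹ * d) * c⁻¹ * d⁻¹ := by rw [e1.eq]; group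
    _ = c * a * b * (a⁻¹ * d) * b⁻¹ * c⁻¹ * d⁻¹ := by rw [h4.inv_left.eq]; group
    _ = (c * a) * (b * d) * a⁻¹ * (b⁻¹ * c⁻¹) * d⁻¹ := by rw [h2.inv_left.eq]; group
    _ = (a * c) * (b * d) * (a⁻¹ * c⁻¹) * (b⁻¹ * d⁻¹) := by
      rw [h3.inv_inv.eq, h1.symm.eq]; group
    _ = (a * c) * (b * d) * (c⁻¹ * a⁻¹) * (d⁻¹ * b⁻¹) := by rw [h1.inv_inv.eq, h4.inv_inv.eq]
    _ = _ := by group

/-- `-1` is a commutator in `SL₂(q)`, `q` odd. -/
theorem isC_neg_one {K : Type*} [Field K] [Finite K] (h2 : (2 : K) ≠ 0) :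
    ∃ a b : Matrix.SpecialLinearGroup (Fin 2) K, dg (-1) = a * b * a⁻¹ * b⁻¹ := by
  have : Fintype K := Fintype.ofFinite K
  obtain ⟨x, y, hxy⟩ : ∃ x y : K, x ^ 2 + y ^ 2 = -1 := by
    have hodd : Fintype.card K % 2 = 1 := by
      obtain ⟨p, hpc⟩ := CharP.exists K
      have hpp : Fact p.Prime := ⟨(CharP.char_is_prime_or_zero K p).resolve_right (CharP.char_ne_zero_of_finite K p)⟩
      have h3 : ringChar K ≠ 2 := by
        rw [ringChar.eq K p]
        rintro rfl
        exact h2 (by exact_mod_cast CharP.cast_eq_zero K 2)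
      exact FiniteField.odd_card_of_char_ne_two h3
    obtain ⟨x, y, e⟩ := FiniteField.exists_root_sum_quadratic (f := Polynomial.X ^ 2) (g := Polynomial.X ^ 2 + 1)
      (by simp) (by rw [Polynomial.degree_add_eq_left_of_degree_lt] <;> simp) hodd
    exact ⟨x, y, by simp at e; linear_combination e⟩
  let a : Matrix.SpecialLinearGroup (Fin 2) K := ⟨!![0, 1; -1, 0], by simp [Matrix.det_fin_two]⟩
  let b : Matrix.SpecialLinearGroup (Fin 2) K := ⟨!![x, y; y, -x], by
    rw [Matrix.det_fin_two_of]; linear_combination -hxy⟩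
  refine ⟨a, b, ?_⟩
  have h1 : a * b = dg (-1) * (b * a) := by
    apply Subtype.ext
    rw [dg_neg_one, neg_one_mul, Matrix.SpecialLinearGroup.coe_neg, Matrix.SpecialLinearGroup.coe_mul,
      Matrix.SpecialLinearGroup.coe_mul]
    show !![(0 : K), 1; -1, 0] * !![x, y; y, -x] = -(!![x, y; y, -x] * !![0, 1; -1, 0])
    simp [Matrix.mul_fin_two]
  rw [h1]
  group

section E7

open Cfsg.Lie Cfsg.Agent.ChevalleyStructure Cfsg.Agent.ChevalleyStructure.Elts
  Cfsg.Agent.ChevalleyStructure.NPerm Cfsg.Agent.ChevalleyStructure.CoxeterGeomTypes Cfsg.Agent.Nodes.RGDChev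
  Cfsg.Agent.Nodes.KindChev Cfsg.Agent.KFacts.RgdChevCoord Cfsg.Agent.OddHalf.NI.ModelChev
  Cfsg.Agent.H85.Ore Cfsg.Agent.H224.Ore.ESeven

variable {K : Type} [Field K] [Finite K]

/-- the products of the coroots -/
theorem th_comb {D : ChevalleyDatum} {l : ℕ} {M : CoxeterMatrix (Fin l)} (hp : IsType D l M) {t : Fin l → Kˣ}
    (h1 : th hp t = 1) (c : Fin l → ℤ) : ∏ i, (t i) ^ (∑ j, cartanOf D l i j * c j) = 1 := by
  have h2 : ∀ j, ∏ i, (t i) ^ cartanOf D l i j = 1 := by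
    intro j
    have := th_cartan hp h1 j
    apply Units.ext
    rw [Units.coe_prod, Units.val_one, ← this]
    exact Finset.prod_congr rfl fun i _ => Units.val_zpow_eq_zpow_val _ _
  calc ∏ i, (t i) ^ (∑ j, cartanOf D l i j * c j) = ∏ i, ∏ j, ((t i) ^ cartanOf D l i j) ^ c j := by
        refine Finset.prod_congr rfl fun i _ => ?_
        rw [← Cfsg.Agent.H162.GaussExc.prod_zpow]
        exact Finset.prod_congr rfl fun j _ => zpow_mul _ _ _
    _ = ∏ j, (∏ i, (t i) ^ cartanOf D l i j) ^ c j := by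
        rw [Finset.prod_comm]
        exact Finset.prod_congr rfl fun j _ => Finset.prod_zpow _ _ _
    _ = 1 := by
        refine Finset.prod_eq_one fun j _ => ?_
        rw [h2, one_zpow]

/-- the solutions of `th t = 1` for `E₇` -/
theorem th_sol_E7 {t : Fin 7 → Kˣ} (h1 : th Nodes.KindE.isType7 t = 1) :
    t 0 = 1 ∧ t 2 = 1 ∧ t 3 = 1 ∧ t 5 = 1 ∧ t 1 = t 6 ∧ t 4 = t 6 := by
  have hsq : ∀ i, t i ^ 2 = 1 := fun i => th_ker_E7 h1 i
  have hz : ∀ (i : Fin 7) (k : ℤ), t i ^ (2 * k) = 1 := fun i k => by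
    rw [zpow_mul, zpow_ofNat, hsq, one_zpow]
  have key := th_comb Nodes.KindE.isType7 h1
  have e0 : ∀ i, ∑ j, cartanOf chevE7 7 i j * (![2, 2, 3, 4, 3, 2, 1] : Fin 7 → ℤ) j = (![1, 0, 0, 0, 0, 0, 0] : Fin 7 → ℤ) i := by
    decide +kernel
  have e2 : ∀ i, ∑ j, cartanOf chevE7 7 i j * (![3, 4, 6, 8, 6, 4, 2] : Fin 7 → ℤ) j = (![0, 0, 1, 0, 0, 0, 0] : Fin 7 → ℤ) i := by
    decide +kernel
  have e3 : ∀ i, ∑ j, cartanOf chevE7 7 i j * (![4, 6, 8, 12, 9, 6, 3] : Fin 7 → ℤ) j = (![0, 0, 0, 1, 0, 0, 0] : Fin 7 → ℤ) i := by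
    decide +kernel
  have e5 : ∀ i, ∑ j, cartanOf chevE7 7 i j * (![2, 3, 4, 6, 5, 4, 2] : Fin 7 → ℤ) j = (![0, 0, 0, 0, 0, 1, 0] : Fin 7 → ℤ) i := by
    decide +kernel
  have e1 : ∀ i, ∑ j, cartanOf chevE7 7 i j * (![1, 2, 2, 3, 2, 1, 0] : Fin 7 → ℤ) j = (![0, 1, 0, 0, 0, 0, -1] : Fin 7 → ℤ) i := by
    decide +kernel
  have e4 : ∀ i, ∑ j, cartanOf chevE7 7 i j * (![2, 3, 4, 6, 5, 3, 1] : Fin 7 → ℤ) j = (![0, 0, 0, 0, 1, 0, -1] : Fin 7 → ℤ) i := by
    decide +kernel
  have f0 := key ![2, 2, 3, 4, 3, 2, 1]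
  have f2 := key ![3, 4, 6, 8, 6, 4, 2]
  have f3 := key ![4, 6, 8, 12, 9, 6, 3]
  have f5 := key ![2, 3, 4, 6, 5, 4, 2]
  have f1 := key ![1, 2, 2, 3, 2, 1, 0]
  have f4 := key ![2, 3, 4, 6, 5, 3, 1]
  simp only [e0] at f0
  simp only [e2] at f2
  simp only [e3] at f3
  simp only [e5] at f5
  simp only [e1] at f1
  simp only [e4] at f4
  rw [Fin.prod_univ_seven] at f0 f1 f2 f3 f4 f5
  simp at f0 f1 f2 f3 f4 f5
  exact ⟨f0, f2, f3, f5, by rwa [mul_inv_eq_one] at f1, by rwa [mul_inv_eq_one] at f4⟩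

/-- **Every element of a perfect central extension of `E₇(q)`, `q` odd, is a commutator.** -/
theorem allC_cover_E7 (K : Type) [Field K] [Fintype K] (ho : Odd (Fintype.card K)) {L : Type} [Group L] [Finite L]
    {π : L →* ↥(chevE7.group K)} (hπ : PCE π) : AllC L := by
  classical
  obtain ⟨p, hpp, hpc, hp2⟩ := Cfsg.Agent.OddHalf.NI.ExcEnd.exists_char K ho
  have : Fact p.Prime := ⟨hpp⟩
  have := finite_W Nodes.KindE.isType7 CoxeterMatrix.E₇.toCoxeterSystem
  have hsimple := Cfsg.Agent.S1054.result (F := K) chevE7 (by simp)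
  have : IsSimpleGroup ↥(chevE7.group K) := hsimple.1
  have R := rgd (K := K) Nodes.KindE.isType7 CoxeterMatrix.E₇.toCoxeterSystem p
  have hq3 : 3 ≤ Nat.card K := by
    rw [Nat.card_eq_fintype_card]
    have h1 : 1 < Fintype.card K := Fintype.one_lt_card
    obtain ⟨m, hm⟩ := ho
    omega
  -- the kernel
  have hk2 : Nat.card π.ker ∣ 2 := by
    obtain ⟨-, h1⟩ := Cfsg.Agent.H68.Bounds.ker_of_hasCyclic (Cfsg.Agent.S2106.result (F := K) rfl) hπ
    exact h1.trans (Nat.gcd_dvd_left _ _)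
  have h2g : IsPGroup 2 π.ker := by
    have : Fact (Nat.Prime 2) := ⟨Nat.prime_two⟩
    rcases (Nat.dvd_prime Nat.prime_two).1 hk2 with h1 | h1
    · exact IsPGroup.of_card (n := 0) (by rw [h1]; rfl)
    · exact IsPGroup.of_card (n := 1) (by rw [h1]; rfl)
  have hk : (Nat.card π.ker).Coprime p :=
    Nat.Coprime.coprime_dvd_left hk2 ((Nat.coprime_primes Nat.prime_two hpp).2 hp2.symm)
  obtain ⟨s', θ', h3, h4, h5, h6, C', hG', hR'⟩ := Cfsg.Agent.OddHalf.NI.Mult.mult hp2 R (G1_eq_top Nodes.KindE.isType7 _)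
    (Cfsg.Agent.OddHalf.NI.ExcEnd.coord Nodes.KindE.isType7) (th Nodes.KindE.isType7)
    (Cfsg.Agent.OddHalf.NI.ExcEnd.th_dg Nodes.KindE.isType7) hπ.surj hπ.cen h2g hπ.perf
  intro g
  by_cases hg : π g = 1
  · -- the centre
    have h7 : g ∈ θ'.range := by
      rw [h6, Subgroup.mem_comap, hg]
      exact one_mem _
    obtain ⟨t, rfl⟩ := h7
    have ht : th Nodes.KindE.isType7 t = 1 := by rw [← h5]; exact hg
    obtain ⟨t0, t2, t3, t5, t1, t4⟩ := th_sol_E7 ht
    have t6 : t 6 ^ 2 = 1 := th_ker_E7 ht 6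
    have ht6 : t 6 = 1 ∨ t 6 = -1 := by
      have t6' : ((t 6 : Kˣ) : K) * ((t 6 : Kˣ) : K) = 1 := by
        rw [← pow_two, ← Units.val_pow_eq_pow_val, t6, Units.val_one]
      rcases mul_self_eq_one_iff.1 t6' with h | h
      · exact Or.inl (Units.ext h)
      · exact Or.inr (Units.ext (by rw [h, Units.val_neg, Units.val_one]))
    rcases ht6 with h8 | h8
    · have : t = 1 := by
        funext i
        fin_cases i
        · exact t0
        · exact t1.trans h8
        · exact t2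
        · exact t3
        · exact t4.trans h8
        · exact t5
        · exact h8
      rw [this, map_one]
      exact Cfsg.Agent.H777.Ore.isC_one
    · have e1 : t = Pi.mulSingle 1 (-1) * (Pi.mulSingle 4 (-1) * Pi.mulSingle 6 (-1)) := by
        funext i
        fin_cases i
        · simpa [Pi.mulSingle_apply] using t0
        · simpa [Pi.mulSingle_apply] using t1.trans h8
        · simpa [Pi.mulSingle_apply] using t2
        · simpa [Pi.mulSingle_apply] using t3
        · simpa [Pi.mulSingle_apply] using t4.trans h8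
        · simpa [Pi.mulSingle_apply] using t5
        · simpa [Pi.mulSingle_apply] using h8
      rw [e1, map_mul, map_mul, h4, h4, h4]
      have h2K : (2 : K) ≠ 0 := by
        intro h20
        apply hp2
        have h9 : ((2 : ℕ) : K) = 0 := by exact_mod_cast h20
        rw [CharP.cast_eq_zero_iff K p] at h9
        exact (Nat.prime_dvd_prime_iff_eq hpp Nat.prime_two).1 h9
      obtain ⟨a, b, hab⟩ := isC_neg_one h2K
      obtain ⟨n', hn'⟩ : ∃ n' : Fin 7 → L, ∀ i, π (n' i) = nc Nodes.KindE.isType7 K i := by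
        choose n' hn' using fun i => hπ.surj (nc Nodes.KindE.isType7 K i)
        exact ⟨n', hn'⟩
      have R' := hR' n' hn'
      have hc : ∀ i j : Fin 7, i ≠ j → CoxeterMatrix.E₇.M i j = 2 → ∀ x y, s' i x * s' j y = s' j y * s' i x :=
        fun i j hij h2 x y => commute_nodes R' C' hij h2 x y
      have c14 := hc 1 4 (by decide) (by decide)
      have c16 := hc 1 6 (by decide) (by decide)
      have c46 := hc 4 6 (by decide) (by decide)
      refine ⟨s' 1 a * (s' 4 a * s' 6 a), s' 1 b * (s' 4 b * s' 6 b), ?_⟩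
      have h9 : ∀ i, s' i (dg (-1)) = s' i a * s' i b * (s' i a)⁻¹ * (s' i b)⁻¹ := fun i => by
        rw [hab]; simp only [map_mul, map_inv]
      rw [h9, h9, h9]
      rw [comm_mul (c46 a a) (c46 a b) (c46 b a) (c46 b b)]
      rw [comm_mul]
      · exact Commute.mul_right (c14 a a) (c16 a a)
      · exact Commute.mul_right (c14 a b) (c16 a b)
      · exact Commute.mul_right (c14 b a) (c16 b a)
      · exact Commute.mul_right (c14 b b) (c16 b b)
  · obtain ⟨φ, hφ⟩ := exists_phi7 K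
    have hok : Cfsg.Agent.H60.MultA.Ok 7 (Nat.card K) := ⟨by norm_num, fun h => absurd h (by norm_num), by simp⟩
    obtain ⟨φ', hφ'⟩ := exists_lift (Cfsg.Agent.H60.MultA.hasTrivial_SL hok) (Cfsg.Agent.H60.MultA.perfect_SL hok) φ
      hπ.surj hπ.cen (Nat.coprime_one_right _)
    have hφ1 : ∀ A, π (φ' A) = φ A := fun A => DFunLike.congr_fun hφ' A
    obtain ⟨-, -, c₀, -, -, -, -, -, -, h⟩ := exists_oneClass7 K hq3 hφ
    exact isC_lift R hπ.cen hk hπ.surj hG' C' (Cfsg.Agent.Nodes.ChevChart.irr_of Cfsg.Agent.Nodes.ChevChart.irr7)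
      (J := {k | k ∈ J7}) (φ' := φ') (c₀ := c₀) (isPGroup_UT (K := K) (n := 7) p) (isPGroup_LT p)
      (fun A => by rw [hφ1]; exact Cfsg.Agent.H162.GaussExc.phi_mem _ tab7 hφ A)
      (by rw [hφ']; exact UJ_le _ tab7 (s := fun _ _ => ((-1 : ℤ) : K)) (fun _ _ => by simp) hφ)
      (by rw [hφ']; exact UNJ_le _ tab7 (s := fun _ _ => ((-1 : ℤ) : K)) (fun _ _ => by simp) hφ)
      h.mf (fun A => by rw [hφ1]; exact h.nf A) (fun A => by rw [hφ1]; exact h.nfN A) hg

end E7

end Cfsg.Agent.H643.QO
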